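/-
Configurations of elements in `L₃(3)`, `U₃(3)`, `PSp₄(3)` and `L₃(4)`.
-/
import Cfsg.Agent.Classical.Transport2
import Cfsg.Agent.Classical.Linear

set_option autoImplicit false

namespace CF.D4.G2

open Matrix Cfsg Subgroup CF.Classical
open scoped MatrixGroups

variable {G H : Type*} [Group G] [Group H]

/-- A central commutator of order three that is centralized by an involution. -/
def Cq (G : Type*) [Group G] : Prop := ∃ u a b w : G, u ≠ 1 ∧ u ^ 3 = 1 ∧ a * u = u * a ∧ b * u = u * b ∧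
  a * b = u * b * a ∧ w * w = 1 ∧ w ≠ 1 ∧ w * u = u * w

/-- A real central commutator of order three. -/
def Ch (G : Type*) [Group G] : Prop := ∃ u a b t : G, u ≠ 1 ∧ u ^ 3 = 1 ∧ b ^ 3 = 1 ∧ a * u = u * a ∧
  u * b = b * u ∧ a * b = u * b * a ∧ t * u = u ^ 2 * t

theorem Cq.map (h : Cq H) (e : G ≃* H) : Cq G := by
  obtain ⟨u, a, b, w, h⟩ := h
  exact ⟨e.symm u, e.symm a, e.symm b, e.symm w, by simpa [← map_mul, ← map_pow] using h⟩

theorem Ch.map (h : Ch H) (e : G ≃* H) : Ch G := by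
  obtain ⟨u, a, b, w, h⟩ := h
  exact ⟨e.symm u, e.symm a, e.symm b, e.symm w, by simpa [← map_mul, ← map_pow] using h⟩

theorem mk_ne {x : H} (y : H) (h : y * x ≠ x * y) : (x : H ⧸ center H) ≠ 1 := fun e =>
  h (mem_center_iff.1 ((QuotientGroup.eq_one_iff x).1 e) y)

theorem cq_of (u a b w v : H) (h : v * u ≠ u * v ∧ u * u * u = 1 ∧ a * u = u * a ∧ b * u = u * b ∧
    a * b = u * b * a ∧ w * w = 1 ∧ a * w ≠ w * a ∧ w * u = u * w) : Cq (H ⧸ center H) := by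
  obtain ⟨h1, h2, h3, h4, h5, h6, h7, h8⟩ := h
  exact ⟨u, a, b, w, mk_ne v h1, congrArg QuotientGroup.mk ((pow_three' u).trans h2), congrArg QuotientGroup.mk h3,
    congrArg QuotientGroup.mk h4, congrArg QuotientGroup.mk h5, congrArg QuotientGroup.mk h6, mk_ne a h7,
    congrArg QuotientGroup.mk h8⟩

theorem ch_of (u a b t : H) (h : t * u ≠ u * t ∧ u * u * u = 1 ∧ b * b * b = 1 ∧ a * u = u * a ∧ u * b = b * u ∧
    a * b = u * b * a ∧ t * u = u * u * t) : Ch (H ⧸ center H) := by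
  obtain ⟨h1, h2, h3, h4, h5, h6, h7⟩ := h
  exact ⟨u, a, b, t, mk_ne t h1, congrArg QuotientGroup.mk ((pow_three' u).trans h2),
    congrArg QuotientGroup.mk ((pow_three' b).trans h3), congrArg QuotientGroup.mk h4, congrArg QuotientGroup.mk h5,
    congrArg QuotientGroup.mk h6, congrArg QuotientGroup.mk (h7.trans (congrArg (· * t) (sq u).symm))⟩

instance fact3 : Fact (Nat.Prime 3) := ⟨Nat.prime_three⟩

variable {E : Type} [Field E] [Fintype E]

theorem l33 (c : Fintype.card E = 3) (e : G ≃* PSL(3, E)) : Cq G ∧ Ch G := by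
  have e := e.trans (pslCongr _ (FiniteField.ringEquivOfCardEq (K' := ZMod 3) (by simpa)))
  let u : SL(3, ZMod 3) := ⟨!![1, 0, 1; 0, 1, 0; 0, 0, 1], by decide +kernel⟩
  let a : SL(3, ZMod 3) := ⟨!![1, 1, 0; 0, 1, 0; 0, 0, 1], by decide +kernel⟩
  let b : SL(3, ZMod 3) := ⟨!![1, 0, 0; 0, 1, 1; 0, 0, 1], by decide +kernel⟩
  let t : SL(3, ZMod 3) := ⟨!![1, 0, 0; 0, 2, 0; 0, 0, 2], by decide +kernel⟩
  let w : SL(3, ZMod 3) := ⟨!![2, 0, 0; 0, 1, 0; 0, 0, 2], by decide +kernel⟩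
  exact ⟨(cq_of u a b w t (by decide +kernel)).map e, (ch_of u a b t (by decide +kernel)).map e⟩

theorem s43 (c : Fintype.card E = 3) (e : G ≃* PSp 2 E) : Cq G := by
  have e := e.trans (pspCongr _ (FiniteField.ringEquivOfCardEq (K' := ZMod 3) (by simpa)))
  let s (a b c d : Matrix (Fin 2) (Fin 2) (ZMod 3)) (h : fromBlocks a b c d * J _ _ * (fromBlocks a b c d)ᵀ = J _ _) :
    symplecticGroup (Fin 2) (ZMod 3) := ⟨_, SymplecticGroup.mem_iff.2 h⟩
  exact (cq_of (s 1 !![2, 0; 0, 0] 0 1 (by decide +kernel)) (s !![1, 1; 0, 1] 0 0 !![1, 0; 2, 1] (by decide +kernel))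
    (s 1 !![0, 1; 1, 0] 0 1 (by decide +kernel)) (s !![1, 0; 0, 2] 0 0 !![1, 0; 0, 2] (by decide +kernel))
    (s 1 0 1 1 (by decide +kernel)) (by decide +kernel)).map e

/-- The field with nine elements. -/
abbrev K9 := QuadraticAlgebra (ZMod 3) (-1) 0

instance fact9 : Fact (∀ r : ZMod 3, r ^ 2 ≠ -1 + 0 * r) := ⟨by decide⟩

instance fin9 : Fintype K9 := Fintype.ofEquiv _ (QuadraticAlgebra.equivProd (-1 : ZMod 3) 0).symm

theorem mem_su {M : SL(3, K9)} (h : M.1ᵀ * M.1.map star = 1) : M ∈ SU 3 K9 3 := by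
  intro u v
  have e : ∀ u v : Fin 3 → K9, hermForm 3 K9 3 u v = u ⬝ᵥ (starRingEnd K9 ∘ v) := fun u v => by
    simp [hermForm, dotProduct, starRingEnd_apply, (by decide +kernel : ∀ x : K9, x ^ 3 = star x)]
  change hermForm 3 K9 3 (M.1 *ᵥ u) (M.1 *ᵥ v) = _
  rw [e, e, show starRingEnd K9 ∘ (M.1 *ᵥ v) = M.1.map star *ᵥ (starRingEnd K9 ∘ v) from
    funext (RingHom.map_mulVec (starRingEnd K9) M.1 v), dotProduct_mulVec, ← vecMul_transpose, vecMul_vecMul, h,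
    vecMul_one]

theorem u33 (c : Fintype.card E = 9) (e : G ≃* PSU 3 E 3) : Cq G ∧ Ch G := by
  have e := e.trans (psuCongr (FiniteField.ringEquivOfCardEq (K' := K9) (c.trans (by decide +kernel))) 3 3)
  let s (m : Matrix (Fin 3) (Fin 3) K9) (h : m.det = 1 ∧ mᵀ * m.map star = 1) : SU 3 K9 3 := ⟨⟨m, h.1⟩, mem_su h.2⟩
  let u := s !![⟨1, 1⟩, ⟨0, 1⟩, ⟨0, 1⟩; ⟨0, 1⟩, ⟨1, 1⟩, ⟨0, 1⟩; ⟨0, 1⟩, ⟨0, 1⟩, ⟨1, 1⟩] (by decide +kernel)
  let a := s !![0, 1, 0; 0, 0, 1; 1, 0, 0] (by decide +kernel)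
  let b := s !![0, ⟨2, 2⟩, ⟨2, 1⟩; ⟨2, 2⟩, ⟨0, 1⟩, 2; ⟨2, 1⟩, 2, ⟨0, 2⟩] (by decide +kernel)
  let t := s !![0, ⟨1, 1⟩, ⟨1, 1⟩; ⟨2, 2⟩, ⟨0, 1⟩, ⟨0, 2⟩; ⟨2, 2⟩, ⟨0, 2⟩, ⟨0, 1⟩] (by decide +kernel)
  let w := s !![0, 2, 0; 2, 0, 0; 0, 0, 2] (by decide +kernel)
  exact ⟨(cq_of u a b w t (by decide +kernel)).map e, (ch_of u a b t (by decide +kernel)).map e⟩

/-- The field with four elements. -/
abbrev K4 := QuadraticAlgebra (ZMod 2) 1 1

instance fact4 : Fact (∀ r : ZMod 2, r ^ 2 ≠ 1 + 1 * r) := ⟨by decide⟩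

instance fin4 : Fintype K4 := Fintype.ofEquiv _ (QuadraticAlgebra.equivProd (1 : ZMod 2) 1).symm

theorem mk_eq {R : Type*} [CommRing R] {x y : SL(3, R)} (h : ∃ c : R, x.1 = c • y.1) : (x : PSL(3, R)) = y := by
  obtain ⟨c, h⟩ := h
  have e : (y⁻¹).1 * x.1 = c • 1 := by
    rw [h, Matrix.mul_smul]; exact congrArg (fun z : SL(3, R) => c • z.1) (inv_mul_cancel y)
  have k (g : SL(3, R)) : g * (y⁻¹ * x) = y⁻¹ * x * g := Subtype.ext (by
    change g.1 * ((y⁻¹).1 * x.1) = (y⁻¹).1 * x.1 * g.1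
    rw [e]; simp)
  exact (QuotientGroup.eq.2 (mem_center_iff.2 k)).symm

theorem ch3 {R : Type*} [CommRing R] (A : Matrix (Fin 3) (Fin 3) R) :
    A ^ 3 = A.trace • A ^ 2 - A.adjugate.trace • A + A.det • 1 := by
  ext i j
  fin_cases i <;> fin_cases j <;>
    simp [pow_succ, mul_apply, Fin.sum_univ_three, adjugate_fin_three, det_fin_three, trace_fin_three] <;>
    ring

/-- The coefficients of the powers of a matrix. -/
def co (a b : K4) : ℕ → K4 × K4 × K4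
  | 0 => (0, 0, 1)
  | n + 1 => ((co a b n).1 * a + (co a b n).2.1, (co a b n).2.2 - (co a b n).1 * b, (co a b n).1)

theorem ord4 (g : PSL(3, K4)) : g ^ 3 = 1 ∨ g ^ 4 = 1 ∨ g ^ 5 = 1 ∨ g ^ 7 = 1 := by
  obtain ⟨g, rfl⟩ := QuotientGroup.mk_surjective g
  have k : ∀ n, g.1 ^ n = (co g.1.trace g.1.adjugate.trace n).1 • g.1 ^ 2 +
      (co g.1.trace g.1.adjugate.trace n).2.1 • g.1 + (co g.1.trace g.1.adjugate.trace n).2.2 • 1 := fun n => by
    induction n with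
    | zero => simp [co]
    | succ n ih =>
      rw [pow_succ, ih]
      simp only [co, add_mul, smul_mul_assoc, ← pow_succ, ← sq, Nat.reduceAdd, ch3, g.2, one_mul]
      module
  obtain ⟨n, h1, h2, h3⟩ := (by decide +kernel : ∀ a b, ∃ n ∈ [3, 4, 5, 7], (co a b n).1 = 0 ∧ (co a b n).2.1 = 0)
    g.1.trace g.1.adjugate.trace
  have : (g : PSL(3, K4)) ^ n = 1 := mk_eq (x := g ^ n) (y := 1) ⟨_, (k n).trans (by
    rw [h2, h3, zero_smul, zero_smul, zero_add, zero_add]; rfl)⟩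
  simp only [List.mem_cons, List.not_mem_nil, or_false] at h1
  rcases h1 with rfl | rfl | rfl | rfl <;> simp [this]

/-- What is used of `L₃(4)`. -/
structure L34 (G : Type*) [Group G] : Prop where
  q8 : ∃ a b s t : G, a ≠ 1 ∧ a ^ 3 = 1 ∧ b ^ 3 = 1 ∧ a * b = b * a ∧ s * a = b * s ∧ s * b = a ^ 2 * s ∧
    t * a = a * b * t ∧ t * b = a * b ^ 2 * t
  ord : ∀ g : G, g ^ 3 = 1 ∨ g ^ 4 = 1 ∨ g ^ 5 = 1 ∨ g ^ 7 = 1
  o7 : ∃ y s : G, y ≠ 1 ∧ y ^ 7 = 1 ∧ s * y = y ^ 2 * s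
  o5 : ∃ (x r : G) (e : K4 × K4 → G) (f : K4 × K4 → K4 × K4), x ≠ 1 ∧ x ^ 5 = 1 ∧ r * x = x ^ 4 * r ∧
    (∀ i j, e i * e j = e (i + j)) ∧ (∀ i, e i = 1 ↔ i = 0) ∧ (∀ i, x * e i = e (f i) * x) ∧ ∀ i, f i = i → i = 0
  card : Nat.card G = 20160

theorem l34' : L34 PSL(3, K4) := by
  let s (m : Matrix (Fin 3) (Fin 3) K4) (h : m.det = 1) : SL(3, K4) := ⟨m, h⟩
  let w : K4 := ⟨0, 1⟩
  let v : K4 := ⟨1, 1⟩
  refine ⟨?_, ord4, ?_, ?_, ?_⟩
  · let a := s !![1, 0, 0; 0, w, 0; 0, 0, v] (by decide +kernel)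
    let b := s !![0, 1, 0; 0, 0, 1; 1, 0, 0] (by decide +kernel)
    let c := s !![w, w, w; w, v, 1; w, 1, v] (by decide +kernel)
    let t := s !![w, w, v; w, v, w; 1, v, v] (by decide +kernel)
    exact ⟨a, b, c, t, mk_ne (s !![1, 1, 0; 0, 1, 0; 0, 0, 1] (by decide +kernel)) (by decide +kernel),
      mk_eq (x := a ^ 3) (y := 1) (by decide +kernel), mk_eq (x := b ^ 3) (y := 1) (by decide +kernel),
      mk_eq (x := a * b) (y := b * a) (by decide +kernel), mk_eq (x := c * a) (y := b * c) (by decide +kernel),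
      mk_eq (x := c * b) (y := a ^ 2 * c) (by decide +kernel),
      mk_eq (x := t * a) (y := a * b * t) (by decide +kernel),
      mk_eq (x := t * b) (y := a * b ^ 2 * t) (by decide +kernel)⟩
  · let y := s !![0, 1, 0; 0, 0, 1; 1, 1, 0] (by decide +kernel)
    let t := s !![1, 0, 0; 0, 1, 1; 0, 1, 0] (by decide +kernel)
    exact ⟨y, t, mk_ne t (by decide +kernel), mk_eq (x := y ^ 7) (y := 1) (by decide +kernel),
      mk_eq (x := t * y) (y := y ^ 2 * t) (by decide +kernel)⟩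
  · let x := s !![1, 0, 0; 0, 0, 1; 0, 1, w] (by decide +kernel)
    let r := s !![1, 0, 0; 0, 0, 1; 0, 1, 0] (by decide +kernel)
    let e (i : K4 × K4) := s !![1, i.1, i.2; 0, 1, 0; 0, 0, 1] (by simp [det_fin_three])
    let d := s !![w, 0, 0; 0, v, 0; 0, 0, 1] (by decide +kernel)
    have k : ∀ i j, ∃ c : K4, (e i * e j).1 = c • (e (i + j)).1 := by decide +kernel
    have l : ∀ i, i ≠ 0 → d * e i ≠ e i * d := by decide +kernel
    have m : ∀ i, ∃ c : K4, (x * e i).1 = c • (e (w * i.1 + i.2, i.1) * x).1 := by decide +kernel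
    exact ⟨x, r, fun i => e i, fun i => (w * i.1 + i.2, i.1), mk_ne r (by decide +kernel),
      mk_eq (x := x ^ 5) (y := 1) (by decide +kernel), mk_eq (x := r * x) (y := x ^ 4 * r) (by decide +kernel),
      fun i j => mk_eq (k i j), fun i => ⟨fun h => by_contra fun n => mk_ne d (l i n) h,
        fun h => h ▸ mk_eq (y := 1) (by decide +kernel)⟩, fun i => mk_eq (m i), by decide +kernel⟩
  · have := card_PSL_fin (F := K4) 3 (by decide)
    rw [show Fintype.card K4 = 4 by decide +kernel, Fin.prod_univ_three] at this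
    generalize Nat.card PSL(3, K4) = n at this ⊢
    norm_num at this
    omega

theorem l34 (c : Fintype.card E = 4) (e : G ≃* PSL(3, E)) : L34 G := by
  have e := (e.trans (pslCongr _ (FiniteField.ringEquivOfCardEq (K' := K4) (c.trans (by decide +kernel))))).symm
  obtain ⟨⟨a, b, s, t, h1⟩, h2, ⟨y, s', h3⟩, ⟨x, r, d, f, h4⟩, h5⟩ := l34'
  exact ⟨⟨e a, e b, e s, e t, by simpa [← map_mul, ← map_pow] using h1⟩,
    fun g => by simpa [← map_pow] using h2 (e.symm g), ⟨e y, e s', by simpa [← map_mul, ← map_pow] using h3⟩,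
    ⟨e x, e r, fun i => e (d i), f, by simpa [← map_mul, ← map_pow] using h4⟩, (Nat.card_congr e.toEquiv).symm.trans h5⟩

end CF.D4.G2
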